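import Cfsg.Agent.AltCent.Fixed
import Cfsg.Agent.AltCent.TwoTwo.Data
import Cfsg.Agent.AltCent.TwoTwo.Reps
import Cfsg.Agent.AltCent.TwoTwo.Terms0
import Cfsg.Agent.AltCent.TwoTwo.Terms1

/-! # TwoTwo: conclusion (generated certificate data) -/

set_option autoImplicit false
set_option maxRecDepth 100000
set_option maxHeartbeats 4000000

namespace CfsgLib.AltCent.TwoTwo

def terms : List Term := terms0 ++ terms1

theorem sum_ok : eqMod 2 (termPairs 2 bases T B terms) [(0, 1)] [(1, 2), (2, 3), (3, 3), (5, 2), (6, 3), (7, 2), (8, 2), (9, 4), (10, 3), (11, 1), (12, 1), (13, 1), (14, 3), (15, 1), (16, 3), (17, 3), (18, 3), (19, 3), (20, 2), (21, 2), (22, 3), (23, 1), (24, 2), (25, 2), (26, 2), (27, 1), (28, 1), (30, 3), (31, 4), (32, 3), (33, 1), (34, 1), (35, 2), (36, 2), (37, 2), (38, 2), (39, 2), (40, 2), (41, 2), (42, 1), (43, 3), (44, 2), (45, 1), (46, 2), (47, 2), (48, 3), (49, 2), (50, 2), (52, 2), (53, 4), (54, 3), (55, 5), (56, 3), (57, 1), (58, 2), (59, 2), (60, 4), (61, 2), (62, 3), (63, 2), (64, 2), (65,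 2), (66, 2), (67, 3), (68, 3), (69, 3), (70, 2), (71, 2), (72, 3), (73, 2), (74, 2), (76, 1), (77, 3), (78, 2), (79, 1), (80, 3), (81, 3), (82, 2), (83, 1), (84, 1), (85, 2), (86, 1), (87, 1), (88, 1), (89, 1), (90, 2), (91, 2), (92, 2), (93, 4), (94, 4), (95, 3), (96, 2), (97, 1), (98, 3), (99, 3), (100, 1), (101, 1), (102, 3), (103, 4), (104, 1), (105, 2), (106, 3), (107, 1), (108, 2), (109, 2), (110, 2), (111, 3), (112, 1), (113, 3), (114, 3), (115, 2), (116, 2), (117, 2), (118, 3), (119, 2), (120, 2), (121, 2), (122, 3), (123, 2), (124, 3), (125, 4), (126, 2), (127, 2), (128, 1), (129, 1), (130, 2), (131, 2), (132, 3), (133, 3), (134, 2), (135, 2), (136, 2), (137, 3), (138, 3), (139, 4), (140, 2), (141, 2), (142, 1), (143, 2), (144, 3), (145, 2), (146, 2), (147, 1), (148, 3), (149, 3), (150, 2), (151, 3), (152, 5), (153, 1), (154, 1), (155, 1), (156, 2), (157, 2), (158, 3), (159, 2), (160, 4), (161, 2), (162, 1), (163, 1), (164, 2), (165, 4), (166, 1), (167, 3), (168, 3), (169, 2), (170, 1), (171, 2), (172,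 4), (173, 4), (174, 2), (175, 1), (176, 3), (177, 1), (178, 1), (179, 2), (180, 1), (181, 2), (182, 1), (183, 3), (184, 3), (185, 3), (186, 3), (187, 1), (188, 2), (189, 3), (190, 1), (191, 3), (192, 2), (193, 2), (194, 5), (195, 3), (196, 2), (197, 2), (198, 3), (199, 3), (200, 3), (201, 3), (202, 2), (203, 2), (204, 4), (205, 3), (206, 3), (207, 2), (208, 1), (209, 4), (210, 2), (211, 3), (212, 4), (213, 4), (214, 2), (215, 2), (216, 4), (217, 3), (218, 3), (219, 3), (220, 2), (221, 2), (222, 4), (223, 1), (224, 3), (225, 3), (226, 2), (227, 1), (228, 1), (229, 1), (230, 3), (231, 3), (232, 3), (233, 4), (234, 2), (235, 1), (236, 4), (237, 2), (238, 3), (239, 4), (240, 3), (241, 2), (242, 1), (243, 3), (244, 4), (245, 2), (246, 1), (247, 2), (248, 2), (249, 2), (250, 4), (251, 4), (252, 1), (253, 2), (254, 4), (255, 2), (256, 3), (257, 3), (258, 2), (259, 4), (260, 3), (261, 3), (262, 3), (263, 3), (264, 3), (265, 1), (266, 3), (267, 3), (268, 2), (269, 2), (270, 2), (271, 4), (272, 3), (273, 1), (274, 3), (275,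 2), (276, 4), (277, 4), (278, 3), (279, 5), (280, 4), (281, 2), (282, 4), (283, 4), (284, 3), (285, 3), (286, 3), (287, 3), (288, 1), (289, 1), (290, 3), (291, 2), (292, 2), (293, 3), (294, 3), (295, 4), (296, 2), (297, 6), (298, 3), (299, 4), (300, 2), (301, 4), (302, 1), (303, 3), (304, 4), (305, 3), (306, 2), (307, 2), (308, 3), (309, 3), (310, 2), (311, 2), (312, 5), (313, 3), (314, 2), (315, 3), (316, 2), (317, 1), (318, 2), (319, 3), (320, 2)] [] = true := by decide +kernel

theorem terms_ok : termsOK 9 bases tR cR T B terms = true := (termsOK_append _ _ terms0_ok terms1_ok)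

variable {V : Type*} [AddCommGroup V] [DistribMulAction (alternatingGroup (Fin 9)) V]

/-- The table acts by scalars as soon as its generators do. -/
theorem acts (hp : ∀ x : V, 2 • x = 0) (v : V)
    (hg : ∀ g ∈ gens, el 9 g.1 • v = g.2 • v) : Acts (n := 9) v B := by
  have z := zero_ok
  simp only [Bool.and_eq_true] at z
  refine acts_of_actsOK (by norm_num) hp v B gens (fun g hgm => ⟨?_, hg g hgm⟩) steps
    (Nat.eq_of_beq_eq_true z.1.1) (Nat.eq_of_beq_eq_true z.1.2) steps_ok
  have hr := goodTab_of_repsOK genWords rfl gens_ok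
  simp only [gens, List.mem_cons, List.not_mem_nil, or_false] at hgm
  rcases hgm with rfl | rfl | rfl | rfl | rfl | rfl
  · exact (show get 0x985674312098321076549854763210987645320198765410329876542301 0 = 654820254465 by decide +kernel) ▸ hr 0 (by decide)
  · exact (show get 0x985674312098321076549854763210987645320198765410329876542301 1 = 654820249650 by decide +kernel) ▸ hr 1 (by decide)
  · exact (show get 0x985674312098321076549854763210987645320198765410329876542301 2 = 654819275265 by decide +kernel) ▸ hr 2 (by decide)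
  · exact (show get 0x985674312098321076549854763210987645320198765410329876542301 3 = 654252061200 by decide +kernel) ▸ hr 3 (by decide)
  · exact (show get 0x985674312098321076549854763210987645320198765410329876542301 4 = 653674968660 by decide +kernel) ▸ hr 4 (by decide)
  · exact (show get 0x985674312098321076549854763210987645320198765410329876542301 5 = 654285484320 by decide +kernel) ▸ hr 5 (by decide)

/-- No nonzero vector satisfies the hypotheses. -/
theorem eq_zero (hp : ∀ x : V, 2 • x = 0) (hX : NoFix 9 V) (v : V)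
    (hg : ∀ g ∈ gens, el 9 g.1 • v = g.2 • v) (h0 : bval (n := 9) v base0 = 0) : v = 0 := by
  have hB := acts hp v hg
  have z := zero_ok
  have hR := reps_ok
  simp only [Bool.and_eq_true] at z hR
  have hb : ∀ b ∈ bases, GoodTab 9 b.tbl b.cnt ∧ bval (n := 9) v b = 0 := by
    intro b hb
    simp only [bases, List.mem_append, List.mem_cons, List.not_mem_nil, or_false] at hb
    rcases hb with ((rfl) | hb) | rfl
    · exact ⟨goodTab_of_repsOK baseWords0 rfl baseWords0_ok, h0⟩
    · exact fixesOK_spec (by norm_num) hp hX hB fixes fixes_ok b hb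
    · exact trivBase_spec (by norm_num) hp (by norm_num) v
  have hT : GoodTab 9 T.tbl T.cnt := by
    have hs := sub_ok
    simp only [subOK, Bool.and_eq_true, List.all_eq_true, List.mem_range, Nat.blt_eq] at hs
    intro k hk
    rw [Nat.eq_of_beq_eq_true (hs.2 k hk).1.1.2]
    exact hB.good _ (hs.2 k hk).1.1.1
  exact eq_zero_of_cert (by norm_num) hp hB sub_ok (by decide) (Nat.eq_of_beq_eq_true z.2)
    (termsOK_spec (by norm_num) hp hB hT tau_ok
      (goodTab_of_repsOK rWords (Nat.eq_of_beq_eq_true hR.1) hR.2) (fun b h => (hb b h).1)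
      (fun b h => (hb b h).2) terms terms_ok) sum_ok

end CfsgLib.AltCent.TwoTwo
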